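import Cfsg.Agent.Lib.Helper58.SlSyl.Defs
import Cfsg.Agent.Lib.Helper75.OmSyl.G4

set_option autoImplicit false

/-! # SlSyl farm (helper58), piece [G4'] -/

namespace Cfsg.Agent.Lib.Helper96.SlSyl

open Cfsg Cfsg.Agent.Lib.Helper58.WrSyl Cfsg.Agent.Lib.Helper75.OmSyl
open scoped commutatorElement

/-- [G4'] -/
theorem powComm_two_ker {S : Type*} [Group S] (Q : Subgroup S) (hQ : PowComm 2 Q)
    (M : Subgroup (Wr S 2)) (hM : commutator (Wr S 2) ≤ M)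
    (hRM : ∀ σ : Equiv.Perm (Fin 2), (SemidirectProduct.inr σ : Wr S 2) ∈ M)
    (hsq : ∀ x ∈ Q, (SemidirectProduct.inl (Pi.mulSingle 0 (x ^ 2)) : Wr S 2) ∈ M)
    (Q₀ : Subgroup S)
    (hQ₀ : ∀ x, x ∈ Q₀ ↔ x ∈ Q ∧ (SemidirectProduct.inl (Pi.mulSingle 0 x) : Wr S 2) ∈ M)
    (hpc : PowComm 2 Q₀)
    (T : Subgroup (Wr S 2)) (hT : ∀ x : Wr S 2, x ∈ T ↔ ∀ i, x.left i ∈ Q) :
    PowComm 2 ↥(T ⊓ M) := by
  classical
  set iF : (Fin 2 → S) →* Wr S 2 := SemidirectProduct.inl with hiF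
  set iR : Equiv.Perm (Fin 2) →* Wr S 2 := SemidirectProduct.inr with hiR
  set i0 : S →* Wr S 2 := iF.comp (MonoidHom.mulSingle (fun _ => S) 0) with hi0
  set i1 : S →* Wr S 2 := iF.comp (MonoidHom.mulSingle (fun _ => S) 1) with hi1
  set dl : S →* Wr S 2 := iF.comp (diagH S 2) with hdl
  set τ : Wr S 2 := iR (Equiv.swap 0 1) with hτ
  have i0_apply : ∀ z, i0 z = iF (Pi.mulSingle 0 z) := fun z => rfl
  have i1_apply : ∀ z, i1 z = iF (Pi.mulSingle 1 z) := fun z => rfl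
  have dl_apply : ∀ z, dl z = iF (fun _ => z) := fun z => rfl
  have hconj : ∀ z, τ * i0 z * τ⁻¹ = i1 z := by
    intro z
    rw [i0_apply, i1_apply, hτ, ← permAut_swap_mulSingle (0 : Fin 2) 1 z, hiF, hiR,
      SemidirectProduct.inl_aut, map_inv]
  have hcomm01 : ∀ a b, i0 a * i1 b = i1 b * i0 a := by
    intro a b
    rw [i0_apply, i1_apply, ← map_mul, ← map_mul]
    congr 1
    funext l
    fin_cases l <;> simp
  have hdl01 : ∀ z, dl z = i0 z * i1 z := by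
    intro z
    rw [i0_apply, i1_apply, dl_apply, ← map_mul]
    congr 1
    funext l
    fin_cases l <;> simp
  have memT_F : ∀ f : Fin 2 → S, (∀ l, f l ∈ Q) → iF f ∈ T := by
    intro f hf
    rw [hT]
    exact hf
  have i1T : ∀ z ∈ Q, i1 z ∈ T := by
    intro z hz
    rw [i1_apply]
    apply memT_F
    intro l
    rw [Pi.mulSingle_apply]
    split_ifs
    · exact hz
    · exact Q.one_mem
  have dlT : ∀ z ∈ Q, dl z ∈ T := fun z hz => memT_F _ (fun _ => hz)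
  have hsK : ∀ σ, iR σ ∈ T ⊓ M := by
    intro σ
    refine Subgroup.mem_inf.2 ⟨?_, hRM σ⟩
    rw [hT]
    exact fun i => Q.one_mem
  have hbr : ∀ z, ⁅τ, i0 z⁆ = i1 z * (i0 z)⁻¹ := by
    intro z
    rw [commutatorElement_def, hconj]
  have h10M : ∀ z, i1 z * (i0 z)⁻¹ ∈ M := by
    intro z
    rw [← hbr]
    exact hM (Subgroup.commutator_mem_commutator (Subgroup.mem_top _) (Subgroup.mem_top _))
  have hsq' : ∀ z ∈ Q, (i0 z) ^ 2 ∈ M := by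
    intro z hz
    rw [← map_pow]
    exact hsq z hz
  have dlM : ∀ z ∈ Q, dl z ∈ M := by
    intro z hz
    have h1 : dl z = (i1 z * (i0 z)⁻¹) * (i0 z) ^ 2 := by
      rw [hdl01, hcomm01, pow_two]
      group
    rw [h1]
    exact M.mul_mem (h10M z) (hsq' z hz)
  have dlK : ∀ z ∈ Q, dl z ∈ T ⊓ M := fun z hz => Subgroup.mem_inf.2 ⟨dlT z hz, dlM z hz⟩
  have dlK' : ∀ z ∈ ⁅Q, Q⁆, dl z ∈ ⁅T ⊓ M, T ⊓ M⁆ := fun z hz => map_comm_le dl Q _ dlK hz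
  have i1K : ∀ z ∈ Q₀, i1 z ∈ T ⊓ M := by
    intro z hz
    obtain ⟨hzQ, hzM⟩ := (hQ₀ z).1 hz
    refine Subgroup.mem_inf.2 ⟨i1T z hzQ, ?_⟩
    have h1 : i1 z = (i1 z * (i0 z)⁻¹) * i0 z := by group
    rw [h1]
    exact M.mul_mem (h10M z) hzM
  have i1K' : ∀ z ∈ ⁅Q₀, Q₀⁆, i1 z ∈ ⁅T ⊓ M, T ⊓ M⁆ := fun z hz => map_comm_le i1 Q₀ _ i1K hz
  -- the main argument
  intro x
  obtain ⟨w, hx⟩ := x
  have hxT := (hT _).1 (Subgroup.mem_inf.1 hx).1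
  have hs := hsK w.right
  have hwdec : w = iF w.left * iR w.right := by
    rw [hiF, hiR, SemidirectProduct.inl_left_mul_inr_right]
  have hy : iF w.left ∈ T ⊓ M := by
    have h1 := (T ⊓ M).mul_mem hx ((T ⊓ M).inv_mem hs)
    nth_rewrite 1 [hwdec] at h1
    rwa [mul_inv_cancel_right] at h1
  obtain ⟨x0, hx0⟩ : ∃ x0, x0 = w.left 0 := ⟨_, rfl⟩
  obtain ⟨x1, hx1⟩ : ∃ x1, x1 = w.left 1 := ⟨_, rfl⟩
  have hx0Q : x0 ∈ Q := hx0 ▸ hxT 0
  have hx1Q : x1 ∈ Q := hx1 ▸ hxT 1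
  have hy01 : iF w.left = i0 x0 * i1 x1 := by
    rw [i0_apply, i1_apply, ← map_mul]
    congr 1
    funext l
    fin_cases l <;> simp [hx0, hx1]
  have hzM : i0 (x0⁻¹ * x1) ∈ M := by
    have h1 : i0 (x0⁻¹ * x1) = ((i0 x0) ^ 2)⁻¹ * (i0 x0 * i1 x1) * (i1 x1 * (i0 x1)⁻¹)⁻¹ := by
      have hc' : i1 x1 * (i0 x1)⁻¹ = (i0 x1)⁻¹ * i1 x1 := by rw [← map_inv, ← hcomm01]
      rw [hc', map_mul, map_inv, pow_two]
      group
    rw [h1]
    refine M.mul_mem (M.mul_mem (M.inv_mem (hsq' _ hx0Q)) ?_) (M.inv_mem (h10M _))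
    rw [← hy01]
    exact (Subgroup.mem_inf.1 hy).2
  have hzQ : x0⁻¹ * x1 ∈ Q := Q.mul_mem (Q.inv_mem hx0Q) hx1Q
  have hz : x0⁻¹ * x1 ∈ Q₀ := (hQ₀ _).2 ⟨hzQ, hzM⟩
  have hy2 : iF w.left = dl x0 * i1 (x0⁻¹ * x1) := by
    rw [hy01, hdl01, map_mul, map_inv]
    group
  have hdec : (⟨w, hx⟩ : ↥(T ⊓ M))
      = (⟨dl x0, dlK x0 hx0Q⟩ * ⟨i1 (x0⁻¹ * x1), i1K _ hz⟩) * ⟨iR w.right, hs⟩ := by
    apply Subtype.ext
    change w = dl x0 * i1 (x0⁻¹ * x1) * iR w.right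
    rw [← hy2, ← hwdec]
  rw [hdec]
  apply powcomm_mul
  · apply powcomm_mul
    · rw [mem_commutator_subtype]
      change (dl x0) ^ 2 ∈ _
      rw [← map_pow]
      apply dlK'
      have h2 := hQ ⟨x0, hx0Q⟩
      rw [mem_commutator_subtype] at h2
      exact h2
    · rw [mem_commutator_subtype]
      change (i1 (x0⁻¹ * x1)) ^ 2 ∈ _
      rw [← map_pow]
      apply i1K'
      have h2 := hpc ⟨_, hz⟩
      rw [mem_commutator_subtype] at h2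
      exact h2
  · rw [mem_commutator_subtype]
    change (iR w.right) ^ 2 ∈ _
    have h1 : ∀ σ : Equiv.Perm (Fin 2), σ ^ 2 = 1 := by decide
    rw [← map_pow, h1, map_one]
    exact Subgroup.one_mem _

end Cfsg.Agent.Lib.Helper96.SlSyl
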