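import Cfsg.Agent.Lib.Helper58.SlSyl.Defs
import Cfsg.Agent.Lib.Helper75.OmSyl.G4

set_option autoImplicit false

/-! # SlSyl farm (helper58), piece [H1] -/

namespace Cfsg.Agent.Lib.Helper96.SlSyl

open Cfsg Cfsg.Agent.Lib.Helper58.WrSyl Cfsg.Agent.Lib.Helper75.OmSyl
open scoped commutatorElement

theorem H1_permAut_mulSingle {A : Type*} [Group A] {n : ℕ} (σ : Equiv.Perm (Fin n)) (i : Fin n)
    (x : A) : permAut A n σ (Pi.mulSingle i x) = Pi.mulSingle (σ i) x := by
  funext k
  rw [permAut_apply, Pi.mulSingle_apply, Pi.mulSingle_apply]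
  by_cases hk : k = σ i
  · subst hk; simp
  · rw [if_neg hk, if_neg]
    intro h
    apply hk
    rw [← h]; simp

/-- the elements of `K` whose square is a product of commutators -/
def H1_E {Y : Type*} [Group Y] (K : Subgroup Y) : Subgroup Y where
  carrier := {y | y ∈ K ∧ y ^ 2 ∈ ⁅K, K⁆}
  one_mem' := ⟨K.one_mem, by simp⟩
  mul_mem' := by
    rintro x y ⟨hx, hx2⟩ ⟨hy, hy2⟩
    refine ⟨K.mul_mem hx hy, ?_⟩
    have h1 : (⟨x, hx⟩ : K) ^ 2 ∈ commutator K := (mem_commutator_subtype K _).2 hx2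
    have h2 : (⟨y, hy⟩ : K) ^ 2 ∈ commutator K := (mem_commutator_subtype K _).2 hy2
    exact (mem_commutator_subtype K _).1 (powcomm_mul 2 h1 h2)
  inv_mem' := by
    rintro x ⟨hx, hx2⟩
    refine ⟨K.inv_mem hx, ?_⟩
    rw [inv_pow]
    exact Subgroup.inv_mem _ hx2

/-- [H1] -/
theorem powComm_mono {A : Type*} [CommGroup A] (n : ℕ) (s : Equiv.Perm (Fin n) →* A)
    (Q : Subgroup A) (hsQ : ∀ σ, s σ ∈ Q) (hs2 : ∀ σ, s σ ^ 2 = 1)
    (R : Subgroup (Equiv.Perm (Fin n)))
    (hgen : R ≤ Subgroup.closure {σ : Equiv.Perm (Fin n) | σ ∈ R ∧ σ ^ 2 = 1})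
    (hswap : ∀ i j : Fin n, ∃ σ ∈ R, σ i = j ∧ σ j = i)
    (hfix : ∀ σ ∈ R, σ ^ 2 = 1 → s σ = 1 ∨ ∃ i, σ i = i)
    (M : Subgroup (Wr A n)) (hMdef : ∀ x : Wr A n, x ∈ M ↔ s x.right * ∏ i, x.left i = 1)
    (T : Subgroup (Wr A n))
    (hT : ∀ x : Wr A n, x ∈ T ↔ (∀ i, x.left i ∈ Q) ∧ x.right ∈ R) :
    PowComm 2 ↥(T ⊓ M) := by
  classical
  have memK : ∀ (b : Fin n → A) (σ : Equiv.Perm (Fin n)), (∀ i, b i ∈ Q) → σ ∈ R →
      s σ * ∏ i, b i = 1 →
      (SemidirectProduct.inl b * SemidirectProduct.inr σ : Wr A n) ∈ T ⊓ M := by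
    intro b σ hb hσ hprod
    refine Subgroup.mem_inf.2 ⟨(hT _).2 ⟨?_, ?_⟩, (hMdef _).2 ?_⟩
    · intro i; simpa using hb i
    · simpa using hσ
    · simpa using hprod
  have memK0 : ∀ (b : Fin n → A), (∀ i, b i ∈ Q) → ∏ i, b i = 1 →
      (SemidirectProduct.inl b : Wr A n) ∈ T ⊓ M := by
    intro b hb hprod
    have := memK b 1 hb R.one_mem (by rw [map_one, one_mul, hprod])
    rwa [map_one, mul_one] at this
  have hsingleQ : ∀ (i : Fin n) (t : A), t ∈ Q → ∀ l, (Pi.mulSingle i t : Fin n → A) l ∈ Q := by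
    intro i t ht l
    rw [Pi.mulSingle_apply]
    split_ifs
    · exact ht
    · exact Q.one_mem
  have hprodsingle : ∀ (i : Fin n) (t : A), ∏ l, (Pi.mulSingle i t : Fin n → A) l = t := by
    intro i t
    rw [Finset.prod_pi_mulSingle']
    simp
  -- conjugation formula
  have hconj : ∀ (c b : Fin n → A) (σ : Equiv.Perm (Fin n)),
      (SemidirectProduct.inl c * SemidirectProduct.inr σ : Wr A n) * SemidirectProduct.inl b *
        (SemidirectProduct.inl c * SemidirectProduct.inr σ : Wr A n)⁻¹ =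
      SemidirectProduct.inl (permAut A n σ b) := by
    intro c b σ
    rw [SemidirectProduct.inl_aut, mul_inv_rev]
    have h1 : (SemidirectProduct.inl c : Wr A n) *
        (SemidirectProduct.inr σ * SemidirectProduct.inl b * SemidirectProduct.inr σ⁻¹) *
        (SemidirectProduct.inl c)⁻¹ =
        SemidirectProduct.inr σ * SemidirectProduct.inl b * SemidirectProduct.inr σ⁻¹ := by
      rw [← SemidirectProduct.inl_aut, ← map_inv, ← map_mul, ← map_mul, mul_comm c,
        mul_inv_cancel_right]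
    rw [← h1, map_inv]
    group
  -- (b)
  have hb : ∀ (i j : Fin n) (t : A), t ∈ Q →
      (SemidirectProduct.inl (Pi.mulSingle i t * Pi.mulSingle j t⁻¹) : Wr A n) ∈
        H1_E (T ⊓ M) := by
    intro i j t ht
    have hdK : (SemidirectProduct.inl (Pi.mulSingle i t * Pi.mulSingle j t⁻¹) : Wr A n) ∈
        T ⊓ M := by
      apply memK0
      · intro l
        exact Q.mul_mem (hsingleQ i t ht l) (hsingleQ j _ (Q.inv_mem ht) l)
      · simp only [Pi.mul_apply]
        rw [Finset.prod_mul_distrib, hprodsingle, hprodsingle, mul_inv_cancel]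
    refine ⟨hdK, ?_⟩
    obtain ⟨σ, hσR, hσi, hσj⟩ := hswap i j
    have hlift : (SemidirectProduct.inl (Pi.mulSingle i (s σ)⁻¹) * SemidirectProduct.inr σ :
        Wr A n) ∈ T ⊓ M := by
      apply memK _ _ (hsingleQ i _ (Q.inv_mem (hsQ σ))) hσR
      rw [hprodsingle, mul_inv_cancel]
    have h1 := hconj (Pi.mulSingle i (s σ)⁻¹) (Pi.mulSingle i t * Pi.mulSingle j t⁻¹) σ
    have hperm : permAut A n σ (Pi.mulSingle i t * Pi.mulSingle j t⁻¹) =
        Pi.mulSingle j t * Pi.mulSingle i t⁻¹ := by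
      rw [map_mul, H1_permAut_mulSingle, H1_permAut_mulSingle, hσi, hσj]
    rw [hperm] at h1
    have h2 : (Pi.mulSingle j t * Pi.mulSingle i t⁻¹ : Fin n → A) =
        (Pi.mulSingle i t * Pi.mulSingle j t⁻¹)⁻¹ := by
      rw [mul_inv, ← Pi.mulSingle_inv, ← Pi.mulSingle_inv, inv_inv, mul_comm]
    rw [h2, map_inv] at h1
    have h3 : (SemidirectProduct.inl (Pi.mulSingle i t * Pi.mulSingle j t⁻¹) : Wr A n) ^ 2 =
        ⁅(SemidirectProduct.inl (Pi.mulSingle i t * Pi.mulSingle j t⁻¹) : Wr A n),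
          SemidirectProduct.inl (Pi.mulSingle i (s σ)⁻¹) * SemidirectProduct.inr σ⁆ := by
      generalize (SemidirectProduct.inl (Pi.mulSingle i t * Pi.mulSingle j t⁻¹) : Wr A n) = d at *
      generalize (SemidirectProduct.inl (Pi.mulSingle i (s σ)⁻¹) * SemidirectProduct.inr σ :
        Wr A n) = y at *
      rw [commutatorElement_def, pow_two]
      have h4 : y * d⁻¹ * y⁻¹ = d := by
        have := congrArg (fun z => z⁻¹) h1
        simp only [mul_inv_rev, inv_inv] at this
        rw [mul_assoc]; exact this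
      calc d * d = d * (y * d⁻¹ * y⁻¹) := by rw [h4]
        _ = d * y * d⁻¹ * y⁻¹ := by group
    rw [h3]
    exact Subgroup.commutator_mem_commutator hdK hlift
  -- (c)
  have hc : ∀ b : Fin n → A, (∀ i, b i ∈ Q) → ∏ i, b i = 1 →
      (SemidirectProduct.inl b : Wr A n) ∈ H1_E (T ⊓ M) := by
    intro b hbQ hprod
    rcases isEmpty_or_nonempty (Fin n) with hem | ⟨⟨i0⟩⟩
    · have : b = 1 := funext (fun i => hem.elim i)
      rw [this, map_one]; exact Subgroup.one_mem _
    · have h1 : b = ∏ i, (Pi.mulSingle i (b i) * Pi.mulSingle i0 (b i)⁻¹ : Fin n → A) := by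
        rw [Finset.prod_mul_distrib, Finset.univ_prod_mulSingle]
        have h2 : ∏ i, (Pi.mulSingle i0 (b i)⁻¹ : Fin n → A) = 1 := by
          have h3 : ∀ i, (Pi.mulSingle i0 (b i)⁻¹ : Fin n → A) =
              MonoidHom.mulSingle (fun _ => A) i0 (b i)⁻¹ := fun i => rfl
          simp_rw [h3]
          rw [← map_prod, Finset.prod_inv_distrib, hprod, inv_one, map_one]
        rw [h2, mul_one]
      have h4 : b ∈ (H1_E (T ⊓ M)).comap (SemidirectProduct.inl : (Fin n → A) →* Wr A n) := by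
        rw [h1]
        apply Subgroup.prod_mem
        intro i _
        exact hb i i0 (b i) (hbQ i)
      exact h4
  -- (d), (e)
  have hd : Subgroup.closure {σ : Equiv.Perm (Fin n) | σ ∈ R ∧ σ ^ 2 = 1} ≤
      (H1_E (T ⊓ M)).map (SemidirectProduct.rightHom : Wr A n →* Equiv.Perm (Fin n)) := by
    rw [Subgroup.closure_le]
    rintro σ ⟨hσR, hσ2⟩
    rcases hfix σ hσR hσ2 with hs1 | ⟨i, hi⟩
    · refine ⟨SemidirectProduct.inr σ, ⟨?_, ?_⟩, by simp⟩
      · have := memK 1 σ (fun _ => Q.one_mem) hσR (by simp [hs1])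
        rwa [map_one, one_mul] at this
      · rw [← map_pow, hσ2, map_one]; exact Subgroup.one_mem _
    · refine ⟨SemidirectProduct.inl (Pi.mulSingle i (s σ)) * SemidirectProduct.inr σ, ⟨?_, ?_⟩,
        by simp⟩
      · apply memK _ _ (hsingleQ i _ (hsQ σ)) hσR
        rw [hprodsingle, ← pow_two, hs2]
      · have h1 : (SemidirectProduct.inl (Pi.mulSingle i (s σ)) * SemidirectProduct.inr σ :
            Wr A n) ^ 2 = 1 := by
          have h2 : (SemidirectProduct.inr σ : Wr A n) * SemidirectProduct.inl (Pi.mulSingle i (s σ))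
              = SemidirectProduct.inl (Pi.mulSingle i (s σ)) * SemidirectProduct.inr σ := by
            have h3 := SemidirectProduct.inl_aut (φ := permAut A n) σ (Pi.mulSingle i (s σ))
            rw [H1_permAut_mulSingle, hi, map_inv] at h3
            exact (eq_mul_inv_iff_mul_eq.1 h3).symm
          calc (SemidirectProduct.inl (Pi.mulSingle i (s σ)) * SemidirectProduct.inr σ :
                Wr A n) ^ 2
              = SemidirectProduct.inl (Pi.mulSingle i (s σ)) *
                (SemidirectProduct.inr σ * SemidirectProduct.inl (Pi.mulSingle i (s σ))) *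
                SemidirectProduct.inr σ := by rw [pow_two]; group
            _ = (SemidirectProduct.inl (Pi.mulSingle i (s σ))) ^ 2 *
                (SemidirectProduct.inr σ) ^ 2 := by rw [h2, pow_two, pow_two]; group
            _ = 1 := by
                rw [← map_pow, ← map_pow, hσ2, ← Pi.mulSingle_pow, hs2, Pi.mulSingle_one, map_one,
                  map_one, one_mul]
        rw [h1]; exact Subgroup.one_mem _
  have hall : ∀ x ∈ T ⊓ M, x ∈ H1_E (T ⊓ M) := by
    intro x hx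
    have hxT := (hT x).1 (Subgroup.mem_inf.1 hx).1
    obtain ⟨y, hyE, hyr⟩ := hd (hgen hxT.2)
    have hyK : y ∈ T ⊓ M := hyE.1
    have hxy : x * y⁻¹ ∈ T ⊓ M := (T ⊓ M).mul_mem hx ((T ⊓ M).inv_mem hyK)
    have hr : (x * y⁻¹).right = 1 := by
      have h1 : y.right = x.right := hyr
      rw [SemidirectProduct.mul_right, SemidirectProduct.inv_right, h1, mul_inv_cancel]
    have heq : x * y⁻¹ = SemidirectProduct.inl (x * y⁻¹).left := by
      apply SemidirectProduct.ext
      · simp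
      · rw [hr]; simp
    have h2 := (hT _).1 (Subgroup.mem_inf.1 hxy).1
    have h3 := (hMdef _).1 (Subgroup.mem_inf.1 hxy).2
    rw [hr, map_one, one_mul] at h3
    have h4 := hc _ h2.1 h3
    rw [← heq] at h4
    have h5 := (H1_E (T ⊓ M)).mul_mem h4 hyE
    rwa [inv_mul_cancel_right] at h5
  intro x
  rw [mem_commutator_subtype]
  exact (hall x.1 x.2).2

end Cfsg.Agent.Lib.Helper96.SlSyl
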