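import Mathlib

set_option autoImplicit false

/-! # SlSyl farm (helper58), piece [H2a] -/

namespace Cfsg.Agent.Lib.Helper96.SlSyl

/-- [H2a] -/
theorem exists_swapping_two_group (k : ℕ) :
    ∃ E : Subgroup (Equiv.Perm (Fin (2 ^ k))), IsPGroup 2 E ∧
      ∀ i j : Fin (2 ^ k), ∃ σ ∈ E, σ i = j ∧ σ j = i := by
  classical
  let e : Fin (2 ^ k) ≃ (Fin k → ZMod 2) := Fintype.equivOfCardEq (by simp [ZMod.card])
  have h2 : ∀ v : Fin k → ZMod 2, v + v = 0 := by
    intro v
    funext l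
    exact CharTwo.add_self_eq_zero (v l)
  let E : Subgroup (Equiv.Perm (Fin (2 ^ k))) :=
    { carrier := {σ | ∃ v : Fin k → ZMod 2, ∀ i, σ i = e.symm (e i + v)}
      one_mem' := ⟨0, fun i => by simp⟩
      mul_mem' := by
        rintro σ τ ⟨v, hv⟩ ⟨w, hw⟩
        refine ⟨w + v, fun i => ?_⟩
        rw [Equiv.Perm.mul_apply, hw, hv, Equiv.apply_symm_apply, add_assoc]
      inv_mem' := by
        rintro σ ⟨v, hv⟩
        refine ⟨v, fun i => ?_⟩
        rw [Equiv.Perm.inv_eq_iff_eq, hv, Equiv.apply_symm_apply, add_assoc, h2, add_zero,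
          Equiv.symm_apply_apply] }
  refine ⟨E, ?_, ?_⟩
  · rintro ⟨σ, v, hv⟩
    refine ⟨1, ?_⟩
    apply Subtype.ext
    ext i
    simp only [pow_one, Subgroup.coe_pow, Subgroup.coe_one, Equiv.Perm.coe_one, id_eq]
    rw [pow_two, Equiv.Perm.mul_apply, hv, hv, Equiv.apply_symm_apply, add_assoc, h2, add_zero,
      Equiv.symm_apply_apply]
  · intro i j
    refine ⟨e.trans ((Equiv.addRight (e i + e j)).trans e.symm), ⟨e i + e j, fun l => rfl⟩, ?_, ?_⟩
    · simp only [Equiv.trans_apply, Equiv.coe_addRight]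
      rw [← add_assoc, h2, zero_add, Equiv.symm_apply_apply]
    · simp only [Equiv.trans_apply, Equiv.coe_addRight]
      rw [add_comm (e i), ← add_assoc, h2, zero_add, Equiv.symm_apply_apply]

end Cfsg.Agent.Lib.Helper96.SlSyl
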